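import Cfsg.Agent.H88.ThreeSubgroups
import Mathlib.GroupTheory.Nilpotent
import Mathlib.Algebra.Lie.Basic
import Mathlib.Algebra.DirectSum.Basic

/-!
The Lie ring of the lower central series of a group.
-/

namespace Cfsg.Agent.H21.Kreknin

open scoped commutatorElement

variable {G : Type*} [Group G]

variable (G) in
/-- The terms of the lower central series. -/
abbrev gam (k : ℕ) : Subgroup G := (⊤ : Subgroup G).lowerCentralSeries k

theorem gam_succ (k : ℕ) : gam G (k + 1) = ⁅gam G k, ⊤⁆ := rfl

theorem gam_anti {i j : ℕ} (h : i ≤ j) : gam G j ≤ gam G i :=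
  Subgroup.lowerCentralSeries_antitone _ h

theorem commutator_gam_le : ∀ b a, ⁅gam G a, gam G b⁆ ≤ gam G (a + b + 1) := by
  intro b
  induction b with
  | zero => exact fun a => le_rfl
  | succ b ih =>
    intro a
    rw [Subgroup.commutator_comm, gam_succ b]
    refine H88.commutator_commutator_le_of_rotate ?_ ?_
    · rw [Subgroup.commutator_comm ⊤, ← gam_succ, show a + (b + 1) + 1 = (a + 1) + b + 1 by omega]
      exact ih (a + 1)
    · rw [show a + (b + 1) + 1 = (a + b + 1) + 1 by omega, gam_succ (a + b + 1)]
      exact Subgroup.commutator_mono (ih a) le_rfl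

theorem mem_gam_commutator {i j : ℕ} {g h : G} (hg : g ∈ gam G i) (hh : h ∈ gam G j) :
    ⁅g, h⁆ ∈ gam G (i + j + 1) :=
  commutator_gam_le j i (Subgroup.commutator_mem_commutator hg hh)

variable (G) in
/-- The next term inside a term. -/
abbrev gamSub (k : ℕ) : Subgroup (gam G k) := (gam G (k + 1)).subgroupOf (gam G k)

/-- A factor of the lower central series. -/
def Factor (G : Type*) [Group G] (k : ℕ) : Type _ := Additive (gam G k ⧸ gamSub G k)

instance factorAddCommGroup (k : ℕ) : AddCommGroup (Factor G k) :=
  { (inferInstance : AddGroup (Additive (gam G k ⧸ gamSub G k))) with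
    add_comm := fun a b => by
      induction a using Additive.rec with | ofMul a => ?_
      induction b using Additive.rec with | ofMul b => ?_
      induction a using QuotientGroup.induction_on with | H a => ?_
      induction b using QuotientGroup.induction_on with | H b => ?_
      refine congrArg Additive.ofMul (QuotientGroup.eq.mpr ?_)
      rw [Subgroup.mem_subgroupOf]
      have h := Subgroup.inv_mem _ (mem_gam_commutator (inv_mem a.2) (inv_mem b.2))
      have h' := gam_anti (G := G) (show k + 1 ≤ k + k + 1 by omega) h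
      rw [commutatorElement_inv, commutatorElement_def, inv_inv, inv_inv] at h'
      simpa [mul_assoc] using h' }

/-- The class of an element in a factor. -/
def fmk (k : ℕ) (g : G) (h : g ∈ gam G k) : Factor G k := Additive.ofMul (QuotientGroup.mk ⟨g, h⟩)

theorem fmk_mul {k : ℕ} {g g' : G} (h : g ∈ gam G k) (h' : g' ∈ gam G k) :
    fmk k (g * g') (mul_mem h h') = fmk k g h + fmk k g' h' := rfl

theorem fmk_one (k : ℕ) : fmk k (1 : G) (one_mem _) = 0 := rfl

theorem fmk_inv {k : ℕ} {g : G} (h : g ∈ gam G k) : fmk k g⁻¹ (inv_mem h) = -fmk k g h := rfl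

theorem fmk_eq_zero {k : ℕ} {g : G} (h : g ∈ gam G k) : fmk k g h = 0 ↔ g ∈ gam G (k + 1) :=
  (Additive.ofMul.injective.eq_iff' rfl).trans (QuotientGroup.eq_one_iff _)

theorem fmk_eq {k : ℕ} {g g' : G} (h : g ∈ gam G k) (h' : g' ∈ gam G k)
    (hd : g⁻¹ * g' ∈ gam G (k + 1)) : fmk k g h = fmk k g' h' :=
  congrArg Additive.ofMul (QuotientGroup.eq.mpr hd)

theorem fmk_conj {k : ℕ} {g : G} (h : g ∈ gam G k) (c : G) (h' : c * g * c⁻¹ ∈ gam G k) :
    fmk k (c * g * c⁻¹) h' = fmk k g h := by
  refine (fmk_eq h h' ?_).symm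
  rw [show g⁻¹ * (c * g * c⁻¹) = ⁅g⁻¹, c⁆ by group]
  have := mem_gam_commutator (inv_mem h) (j := 0) (Subgroup.mem_top c)
  exact this

theorem fmk_surjective {k : ℕ} (x : Factor G k) : ∃ g h, fmk k g h = x := by
  induction x using Additive.rec with | ofMul a => ?_
  induction a using QuotientGroup.induction_on with | H a => ?_
  exact ⟨a.1, a.2, rfl⟩

/-- An additive map out of a factor from a function on the term. -/
def factorLift {k : ℕ} {A : Type*} [AddCommGroup A] (φ : ∀ g : G, g ∈ gam G k → A)
    (hmul : ∀ g g' (h : g ∈ gam G k) (h' : g' ∈ gam G k), φ (g * g') (mul_mem h h') = φ g h + φ g' h')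
    (hzero : ∀ g (h : g ∈ gam G k), g ∈ gam G (k + 1) → φ g h = 0) : Factor G k →+ A :=
  let Φ : gam G k ⧸ gamSub G k →* Multiplicative A := QuotientGroup.lift (gamSub G k)
    (MonoidHom.mk' (fun g : gam G k => Multiplicative.ofAdd (φ g.1 g.2))
      fun a b => congrArg Multiplicative.ofAdd (hmul a.1 b.1 a.2 b.2))
    fun g hg => congrArg Multiplicative.ofAdd (hzero g.1 g.2 (Subgroup.mem_subgroupOf.mp hg))
  AddMonoidHom.mk' (fun x : Factor G k => Multiplicative.toAdd (Φ (Additive.toMul x)))
    fun a b => congrArg Multiplicative.toAdd (map_mul Φ (Additive.toMul a) (Additive.toMul b))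

theorem factorLift_mk {k : ℕ} {A : Type*} [AddCommGroup A] (φ : ∀ g : G, g ∈ gam G k → A)
    (hmul : ∀ g g' (h : g ∈ gam G k) (h' : g' ∈ gam G k), φ (g * g') (mul_mem h h') = φ g h + φ g' h')
    (hzero : ∀ g (h : g ∈ gam G k), g ∈ gam G (k + 1) → φ g h = 0) (g : G) (h : g ∈ gam G k) :
    factorLift φ hmul hzero (fmk k g h) = φ g h := rfl

/-- The Lie ring of a group, as an additive group. -/
abbrev GrLie (G : Type*) [Group G] : Type _ := DirectSum ℕ (Factor G)

/-- The homogeneous element of an element of a term. -/
def iota (k : ℕ) (g : G) (h : g ∈ gam G k) : GrLie G := DirectSum.of (Factor G) k (fmk k g h)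

theorem iota_mul {k : ℕ} {g g' : G} (h : g ∈ gam G k) (h' : g' ∈ gam G k) :
    iota k (g * g') (mul_mem h h') = iota k g h + iota k g' h' := by
  simp only [iota, fmk_mul h h', map_add]

theorem iota_congr {k k' : ℕ} {g g' : G} (h : g ∈ gam G k) (h' : g' ∈ gam G k') (hk : k = k')
    (hg : g = g') : iota k g h = iota k' g' h' := by
  subst hk hg; rfl

theorem iota_eq_zero {k : ℕ} {g : G} (h : g ∈ gam G k) : iota k g h = 0 ↔ g ∈ gam G (k + 1) := by
  rw [iota, map_eq_zero_iff _ (DirectSum.of_injective k), fmk_eq_zero]

theorem iota_conj {k : ℕ} {g : G} (h : g ∈ gam G k) (c : G) (h' : c * g * c⁻¹ ∈ gam G k) :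
    iota k (c * g * c⁻¹) h' = iota k g h := by
  rw [iota, fmk_conj h c h']; rfl

theorem conj_mem_gam {k : ℕ} {g : G} (h : g ∈ gam G k) (c : G) : c * g * c⁻¹ ∈ gam G k :=
  (inferInstance : (gam G k).Normal).conj_mem g h c

/-- Bracket with a fixed element. -/
def bracketRight (i j : ℕ) (g : G) (hg : g ∈ gam G i) : Factor G j →+ GrLie G :=
  factorLift (fun h hh => iota (i + j + 1) ⁅g, h⁆ (mem_gam_commutator hg hh))
    (fun a b ha hb => by
      have e : ⁅g, a * b⁆ = ⁅g, a⁆ * (a * ⁅g, b⁆ * a⁻¹) := by group
      rw [iota_congr _ (mul_mem (mem_gam_commutator hg ha)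
        (conj_mem_gam (mem_gam_commutator hg hb) a)) rfl e,
        iota_mul (mem_gam_commutator hg ha) (conj_mem_gam (mem_gam_commutator hg hb) a),
        iota_conj (mem_gam_commutator hg hb) a (conj_mem_gam (mem_gam_commutator hg hb) a)])
    (fun a _ ha => (iota_eq_zero _).mpr (gam_anti (le_of_eq (by omega)) (mem_gam_commutator hg ha)))

theorem bracketRight_mk (i j : ℕ) (g : G) (hg : g ∈ gam G i) (h : G) (hh : h ∈ gam G j) :
    bracketRight i j g hg (fmk j h hh) = iota (i + j + 1) ⁅g, h⁆ (mem_gam_commutator hg hh) := rfl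

/-- Bracket of two factors. -/
def bracketHom (i j : ℕ) : Factor G i →+ Factor G j →+ GrLie G :=
  factorLift (fun g hg => bracketRight i j g hg)
    (fun a b ha hb => by
      refine AddMonoidHom.ext fun x => ?_
      obtain ⟨c, hc, rfl⟩ := fmk_surjective x
      rw [AddMonoidHom.add_apply, bracketRight_mk, bracketRight_mk, bracketRight_mk]
      have e : ⁅a * b, c⁆ = (a * ⁅b, c⁆ * a⁻¹) * ⁅a, c⁆ := by group
      rw [iota_congr _ (mul_mem (conj_mem_gam (mem_gam_commutator hb hc) a)
        (mem_gam_commutator ha hc)) rfl e,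
        iota_mul (conj_mem_gam (mem_gam_commutator hb hc) a) (mem_gam_commutator ha hc),
        iota_conj (mem_gam_commutator hb hc) a (conj_mem_gam (mem_gam_commutator hb hc) a), add_comm])
    (fun a _ ha => by
      refine AddMonoidHom.ext fun x => ?_
      obtain ⟨c, hc, rfl⟩ := fmk_surjective x
      rw [AddMonoidHom.zero_apply, bracketRight_mk, iota_eq_zero]
      exact gam_anti (show i + j + 1 + 1 ≤ i + 1 + j + 1 by omega) (mem_gam_commutator ha hc))

/-- The bracket. -/
def bracketAdd : GrLie G →+ GrLie G →+ GrLie G :=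
  DirectSum.toAddMonoid fun i => (DirectSum.toAddMonoid fun j => (bracketHom i j).flip).flip

theorem bracketAdd_iota {i j : ℕ} {g h : G} (hg : g ∈ gam G i) (hh : h ∈ gam G j) :
    bracketAdd (iota i g hg) (iota j h hh) = iota (i + j + 1) ⁅g, h⁆ (mem_gam_commutator hg hh) := by
  simp only [bracketAdd, iota, DirectSum.toAddMonoid_of, AddMonoidHom.flip_apply]
  rfl

@[elab_as_elim]
theorem grLie_induction {motive : GrLie G → Prop} (x : GrLie G) (zero : motive 0)
    (add : ∀ a b, motive a → motive b → motive (a + b))
    (hom : ∀ k g h, motive (iota k g h)) : motive x := by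
  induction x using DirectSum.induction_on with
  | zero => exact zero
  | of k a => obtain ⟨g, h, rfl⟩ := fmk_surjective a; exact hom k g h
  | add a b ha hb => exact add a b ha hb

theorem bracketAdd_skew (x y : GrLie G) : bracketAdd x y + bracketAdd y x = 0 := by
  induction x using grLie_induction with
  | zero => simp
  | add a b ha hb =>
    rw [map_add, map_add, AddMonoidHom.add_apply, add_add_add_comm, ha, hb, add_zero]
  | hom i g hg =>
    induction y using grLie_induction with
    | zero => simp
    | add a b ha hb =>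
      rw [map_add, map_add, AddMonoidHom.add_apply, add_add_add_comm, ha, hb, add_zero]
    | hom j h hh =>
      rw [bracketAdd_iota, bracketAdd_iota,
        iota_congr (mem_gam_commutator hh hg) (g' := ⁅g, h⁆⁻¹) (k' := i + j + 1)
          (inv_mem (mem_gam_commutator hg hh)) (by omega) (commutatorElement_inv g h).symm,
        ← iota_mul (mem_gam_commutator hg hh) (inv_mem (mem_gam_commutator hg hh)), iota_eq_zero,
        mul_inv_cancel]
      exact one_mem _

theorem bracketAdd_self (x : GrLie G) : bracketAdd x x = 0 := by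
  induction x using grLie_induction with
  | zero => simp
  | add a b ha hb =>
    simp only [map_add, AddMonoidHom.add_apply, ha, hb, zero_add, add_zero, bracketAdd_skew]
  | hom i g hg =>
    rw [bracketAdd_iota, iota_eq_zero, commutatorElement_self]
    exact one_mem _

theorem bracketAdd_jacobi (x y z : GrLie G) :
    bracketAdd (bracketAdd x y) z + bracketAdd (bracketAdd y z) x + bracketAdd (bracketAdd z x) y = 0 := by
  induction x using grLie_induction with
  | zero => simp
  | add a b ha hb =>
    calc _ = (bracketAdd (bracketAdd a y) z + bracketAdd (bracketAdd y z) a + bracketAdd (bracketAdd z a) y) +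
          (bracketAdd (bracketAdd b y) z + bracketAdd (bracketAdd y z) b + bracketAdd (bracketAdd z b) y) := by
          simp only [map_add, AddMonoidHom.add_apply]; abel
      _ = 0 := by rw [ha, hb, add_zero]
  | hom i a ha =>
    induction y using grLie_induction with
    | zero => simp
    | add u v hu hv =>
      calc _ = (bracketAdd (bracketAdd (iota i a ha) u) z + bracketAdd (bracketAdd u z) (iota i a ha) +
              bracketAdd (bracketAdd z (iota i a ha)) u) +
            (bracketAdd (bracketAdd (iota i a ha) v) z + bracketAdd (bracketAdd v z) (iota i a ha) +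
              bracketAdd (bracketAdd z (iota i a ha)) v) := by
            simp only [map_add, AddMonoidHom.add_apply]; abel
        _ = 0 := by rw [hu, hv, add_zero]
    | hom j b hb =>
      induction z using grLie_induction with
      | zero => simp
      | add u v hu hv =>
        calc _ = (bracketAdd (bracketAdd (iota i a ha) (iota j b hb)) u +
                bracketAdd (bracketAdd (iota j b hb) u) (iota i a ha) +
                bracketAdd (bracketAdd u (iota i a ha)) (iota j b hb)) +
              (bracketAdd (bracketAdd (iota i a ha) (iota j b hb)) v +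
                bracketAdd (bracketAdd (iota j b hb) v) (iota i a ha) +
                bracketAdd (bracketAdd v (iota i a ha)) (iota j b hb)) := by
              simp only [map_add, AddMonoidHom.add_apply]; abel
          _ = 0 := by rw [hu, hv, add_zero]
      | hom l c hc =>
        have hc' := conj_mem_gam hc b
        have ha' := conj_mem_gam ha c
        have hb' := conj_mem_gam hb a
        conv_lhs =>
          rw [← iota_conj hc b hc']
        -- conjugates of the third arguments
        have e1 : bracketAdd (bracketAdd (iota i a ha) (iota j b hb)) (iota l (b * c * b⁻¹) hc') =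
            iota (i + j + 1 + l + 1) ⁅⁅a, b⁆, b * c * b⁻¹⁆ (mem_gam_commutator (mem_gam_commutator ha hb) hc') := by
          rw [bracketAdd_iota, bracketAdd_iota]
        have e2 : bracketAdd (bracketAdd (iota j b hb) (iota l c hc)) (iota i (c * a * c⁻¹) ha') =
            iota (j + l + 1 + i + 1) ⁅⁅b, c⁆, c * a * c⁻¹⁆ (mem_gam_commutator (mem_gam_commutator hb hc) ha') := by
          rw [bracketAdd_iota, bracketAdd_iota]
        have e3 : bracketAdd (bracketAdd (iota l c hc) (iota i a ha)) (iota j (a * b * a⁻¹) hb') =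
            iota (l + i + 1 + j + 1) ⁅⁅c, a⁆, a * b * a⁻¹⁆ (mem_gam_commutator (mem_gam_commutator hc ha) hb') := by
          rw [bracketAdd_iota, bracketAdd_iota]
        rw [iota_conj hc b hc', ← iota_conj ha c ha', ← iota_conj hb a hb'] at *
        rw [e1, e2, e3]
        set n := i + j + 1 + l + 1 with hn
        have m2 : ⁅⁅b, c⁆, c * a * c⁻¹⁆ ∈ gam G n :=
          (show n = j + l + 1 + i + 1 by omega) ▸ mem_gam_commutator (mem_gam_commutator hb hc) ha'
        have m3 : ⁅⁅c, a⁆, a * b * a⁻¹⁆ ∈ gam G n :=
          (show n = l + i + 1 + j + 1 by omega) ▸ mem_gam_commutator (mem_gam_commutator hc ha) hb'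
        rw [iota_congr (mem_gam_commutator (mem_gam_commutator hb hc) ha') m2 (by omega) rfl,
          iota_congr (mem_gam_commutator (mem_gam_commutator hc ha) hb') m3 (by omega) rfl,
          ← iota_mul, ← iota_mul, iota_eq_zero]
        have : ⁅⁅a, b⁆, b * c * b⁻¹⁆ * ⁅⁅b, c⁆, c * a * c⁻¹⁆ * ⁅⁅c, a⁆, a * b * a⁻¹⁆ = 1 := by group
        rw [this]
        exact one_mem _

instance grLieRing : LieRing (GrLie G) where
  bracket x y := bracketAdd x y
  add_lie x y z := by show bracketAdd (x + y) z = _; rw [map_add]; rfl
  lie_add x y z := map_add (bracketAdd x) y z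
  lie_self x := bracketAdd_self x
  leibniz_lie x y z := by
    show bracketAdd x (bracketAdd y z) = bracketAdd (bracketAdd x y) z + bracketAdd y (bracketAdd x z)
    have h := bracketAdd_jacobi x y z
    have h1 := eq_neg_of_add_eq_zero_left (bracketAdd_skew x (bracketAdd y z))
    have h2 := eq_neg_of_add_eq_zero_left (bracketAdd_skew y (bracketAdd x z))
    have h3 := eq_neg_of_add_eq_zero_left (bracketAdd_skew z x)
    rw [h3, map_neg, AddMonoidHom.neg_apply] at h
    rw [h1, h2, ← sub_eq_zero, ← neg_eq_zero]
    refine Eq.trans ?_ h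
    abel

theorem lie_iota {i j : ℕ} {g h : G} (hg : g ∈ gam G i) (hh : h ∈ gam G j) :
    ⁅iota i g hg, iota j h hh⁆ = iota (i + j + 1) ⁅g, h⁆ (mem_gam_commutator hg hh) :=
  bracketAdd_iota hg hh

end Cfsg.Agent.H21.Kreknin
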