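import Cfsg.Agent.H21.Kreknin.GradedNilpotent
import Mathlib.Algebra.Lie.BaseChange
import Mathlib.RingTheory.AdjoinRoot
import Mathlib.RingTheory.Flat.Basic
import Mathlib.RingTheory.Polynomial.Cyclotomic.Roots
import Mathlib.RingTheory.RootsOfUnity.PrimitiveRoots

/-!
Lie rings with an automorphism of prime order without nonzero fixed point.
-/

namespace Cfsg.Agent.H21.Kreknin

open Polynomial TensorProduct

attribute [-instance] LieAlgebra.ExtendScalars.instBracketTensorProduct

universe u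

/-- The lower central series of a Lie ring, as additive subgroups. -/
def lcsL (L : Type*) [LieRing L] : ℕ → AddSubgroup L
  | 0 => ⊤
  | k + 1 => AddSubgroup.closure {x | ∃ a ∈ lcsL L k, ∃ b : L, x = ⁅a, b⁆}

variable (p : ℕ) [hp : Fact p.Prime]

/-- The ring of `p`-th cyclotomic integers. -/
abbrev CycInt : Type := AdjoinRoot (cyclotomic p ℤ)

theorem cycInt_isDomain : IsDomain (CycInt p) :=
  AdjoinRoot.isDomain_of_prime (cyclotomic.irreducible hp.out.pos).prime

theorem cycInt_root : IsPrimitiveRoot (AdjoinRoot.root (cyclotomic p ℤ)) p := by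
  set ζ := AdjoinRoot.root (cyclotomic p ℤ)
  have h0 : ∑ i ∈ Finset.range p, ζ ^ i = 0 := by
    have h := AdjoinRoot.aeval_eq (f := cyclotomic p ℤ) (cyclotomic p ℤ)
    rw [AdjoinRoot.mk_self, show aeval (AdjoinRoot.root (cyclotomic p ℤ)) (cyclotomic p ℤ) =
      aeval (AdjoinRoot.root (cyclotomic p ℤ)) (∑ i ∈ Finset.range p, (X : ℤ[X]) ^ i) from
        congrArg _ (cyclotomic_prime ℤ p)] at h
    simpa only [map_sum, map_pow, aeval_X] using h
  have hne : ζ ≠ 1 := by
    intro e
    rw [e] at h0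
    simp only [one_pow, Finset.sum_const, Finset.card_range, nsmul_eq_mul, mul_one] at h0
    have hdeg : (cyclotomic p ℤ).degree ≠ 0 := by
      rw [degree_cyclotomic, Nat.totient_prime hp.out]
      exact Nat.cast_ne_zero.mpr (Nat.sub_ne_zero_of_lt hp.out.one_lt)
    have : ((p : ℤ) : CycInt p) = 0 := by rw [Int.cast_natCast]; exact h0
    have h2 := AdjoinRoot.of.injective_of_degree_ne_zero hdeg (a₁ := (p : ℤ)) (a₂ := 0)
      (by rw [map_natCast, map_zero, ← Int.cast_natCast]; exact this)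
    exact hp.out.ne_zero (by exact_mod_cast h2)
  have hpow : ζ ^ p = 1 := by
    rw [← sub_eq_zero, ← mul_geom_sum, h0, mul_zero]
  have := orderOf_eq_prime hpow hne
  exact IsPrimitiveRoot.iff_orderOf.mpr this

variable {p} {L : Type u} [LieRing L]

omit hp in
theorem pow_torsion_free (htor : ∀ x : L, p • x = 0 → x = 0) :
    ∀ (n : ℕ) (x : L), (p ^ n) • x = 0 → x = 0
  | 0, x, h => by simpa using h
  | n + 1, x, h => htor x (pow_torsion_free htor n _ (by rwa [pow_succ, mul_smul] at h))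

omit hp in
theorem bracket_tmul (s t : CycInt p) (x y : L) :
    ⁅s ⊗ₜ[ℤ] x, t ⊗ₜ[ℤ] y⁆ = (s * t) ⊗ₜ ⁅x, y⁆ := rfl

omit hp in
theorem smul_lie_smul (r r' : CycInt p) (a b : CycInt p ⊗[ℤ] L) :
    ⁅r • a, r' • b⁆ = (r * r') • ⁅a, b⁆ := by
  induction a using TensorProduct.induction_on with
  | zero => simp
  | add a₁ a₂ h₁ h₂ => simp only [smul_add, add_lie, h₁, h₂]
  | tmul s x =>
    induction b using TensorProduct.induction_on with
    | zero => simp
    | add b₁ b₂ h₁ h₂ => simp only [smul_add, lie_add, h₁, h₂]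
    | tmul t y =>
      rw [TensorProduct.smul_tmul', TensorProduct.smul_tmul', bracket_tmul, bracket_tmul,
        TensorProduct.smul_tmul']
      simp only [smul_eq_mul, mul_mul_mul_comm]


theorem one_tmul_injective : Function.Injective fun l : L => (1 : CycInt p) ⊗ₜ[ℤ] l := by
  let pb := AdjoinRoot.powerBasis' (cyclotomic.monic p ℤ)
  have hdim : 0 < pb.dim := by
    rw [AdjoinRoot.powerBasis'_dim, natDegree_cyclotomic]; exact Nat.totient_pos.mpr hp.out.pos
  have h1 : pb.basis.coord ⟨0, hdim⟩ (1 : CycInt p) = 1 := by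
    have : (1 : CycInt p) = pb.basis ⟨0, hdim⟩ := by rw [pb.basis_eq_pow, pow_zero]
    rw [this, Module.Basis.coord_apply, Module.Basis.repr_self, Finsupp.single_eq_same]
  intro a b h
  have := congrArg (fun z => TensorProduct.lid ℤ L ((pb.basis.coord ⟨0, hdim⟩).rTensor L z)) h
  simpa [h1] using this

/-- An automorphism of prime order `p` without nonzero fixed point of a Lie ring without `p`-torsion
makes it nilpotent of the class of the graded Lie rings. -/
theorem lcsL_eq_bot_of_fpf (σ : L →+ L) (hσ : ∀ a b, σ ⁅a, b⁆ = ⁅σ a, σ b⁆)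
    (hord : ∀ x, σ^[p] x = x) (hfix : ∀ x, σ x = x → x = 0) (htor : ∀ x : L, p • x = 0 → x = 0) {N : ℕ}
    (hN : ∀ {M : Type u} [LieRing M] (B : ZMod p → AddSubgroup M), IsClosedFam B → B 0 = ⊥ →
      ∀ t, lcsFam B N t = ⊥) : lcsL L N = ⊥ := by
  classical
  have := cycInt_isDomain p
  set ζ := AdjoinRoot.root (cyclotomic p ℤ) with hζdef
  have hζ := cycInt_root p
  have : Module.Free ℤ (CycInt p) := Module.Free.of_basis (AdjoinRoot.powerBasis' (cyclotomic.monic p ℤ)).basis
  let z : ZMod p → CycInt p := fun u => ζ ^ u.val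
  have hzadd : ∀ u v, z (u + v) = z u * z v := fun u v => by
    show ζ ^ (u + v).val = ζ ^ u.val * ζ ^ v.val
    rw [← pow_add, ZMod.val_add, ← pow_eq_pow_mod _ hζ.pow_eq_one]
  have hz0 : z 0 = 1 := by show ζ ^ (0 : ZMod p).val = 1; rw [ZMod.val_zero, pow_zero]
  let σ' : (CycInt p ⊗[ℤ] L) →ₗ[CycInt p] (CycInt p ⊗[ℤ] L) := σ.toIntLinearMap.baseChange (CycInt p)
  have hσ'tmul : ∀ (r : CycInt p) l, σ' (r ⊗ₜ l) = r ⊗ₜ σ l := fun r l => rfl
  have hσ' : ∀ a b, σ' ⁅a, b⁆ = ⁅σ' a, σ' b⁆ := by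
    intro a b
    induction a using TensorProduct.induction_on with
    | zero => simp
    | add a₁ a₂ h₁ h₂ => simp [add_lie, h₁, h₂]
    | tmul r l =>
      induction b using TensorProduct.induction_on with
      | zero => simp
      | add b₁ b₂ h₁ h₂ => simp [lie_add, h₁, h₂]
      | tmul r' l' => simp [hσ'tmul, hσ, bracket_tmul]
  let B : ZMod p → AddSubgroup (CycInt p ⊗[ℤ] L) := fun t =>
    { carrier := {y | σ' y = z t • y}
      zero_mem' := by simp
      add_mem' := fun {a b} (ha : σ' a = z t • a) (hb : σ' b = z t • b) => by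
        show σ' (a + b) = z t • (a + b)
        rw [map_add, ha, hb, smul_add]
      neg_mem' := fun {a} (ha : σ' a = z t • a) => by
        show σ' (-a) = z t • (-a)
        rw [map_neg, ha, smul_neg] }
  have hB : IsClosedFam B := fun i j a (ha : σ' a = z i • a) b (hb : σ' b = z j • b) => by
    show σ' ⁅a, b⁆ = z (i + j) • ⁅a, b⁆
    rw [hσ', ha, hb, smul_lie_smul, hzadd]
  have hinj : Function.Injective ((σ.toIntLinearMap - LinearMap.id).lTensor (CycInt p)) :=
    Module.Flat.lTensor_preserves_injective_linearMap _ ((injective_iff_map_eq_zero _).mpr fun x hx =>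
      hfix x (sub_eq_zero.mp hx))
  have h0 : B 0 = ⊥ := by
    refine (AddSubgroup.eq_bot_iff_forall _).mpr fun y (hy : σ' y = z 0 • y) => hinj ?_
    rw [map_zero, LinearMap.lTensor_sub, LinearMap.lTensor_id, LinearMap.sub_apply, LinearMap.id_apply]
    rw [hz0, one_smul] at hy
    exact sub_eq_zero.mpr hy
  have decomp0 : ∀ x : L, (p ^ (0 + 1)) • ((1 : CycInt p) ⊗ₜ[ℤ] x) ∈
      AddSubgroup.closure {y | ∃ t, y ∈ lcsFam B 0 t} := by
    intro x
    let f : ZMod p → L := fun k => σ^[k.val] x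
    have hf : ∀ k, σ (f k) = f (k + 1) := fun k => by
      show σ (σ^[k.val] x) = σ^[(k + 1).val] x
      rw [← Function.iterate_succ_apply' σ, ZMod.val_add, ZMod.val_one]
      exact (Function.IsPeriodicPt.iterate_mod_apply (hord x) (k.val + 1)).symm
    let e : ZMod p → CycInt p ⊗[ℤ] L := fun t => ∑ k : ZMod p, z (-(t * k)) • ((1 : CycInt p) ⊗ₜ f k)
    have he : ∀ t, e t ∈ B t := fun t => by
      show σ' (e t) = z t • e t
      simp only [e, map_sum, map_smul, hσ'tmul, hf, Finset.smul_sum, smul_smul]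
      refine Fintype.sum_equiv (Equiv.addRight 1) _ _ fun k => ?_
      rw [Equiv.coe_addRight, ← hzadd]
      congr 2
      ring
    have hsum : ∀ k : ZMod p, ∑ t : ZMod p, z (-(t * k)) = if k = 0 then (p : CycInt p) else 0 := by
      intro k
      split_ifs with hk
      · subst hk; simp [hz0]
      · have h : z (-k) * ∑ t : ZMod p, z (-(t * k)) = ∑ t : ZMod p, z (-(t * k)) := by
          rw [Finset.mul_sum]
          refine Fintype.sum_equiv (Equiv.addRight 1) _ _ fun t => ?_
          rw [Equiv.coe_addRight, ← hzadd]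
          congr 1
          ring
        have hne : z (-k) ≠ 1 := hζ.pow_ne_one_of_pos_of_lt
          (fun e => hk (neg_eq_zero.mp ((ZMod.val_eq_zero _).mp e))) (ZMod.val_lt _)
        exact (mul_eq_zero.mp (show (z (-k) - 1) * _ = 0 by rw [sub_mul, h, one_mul, sub_self])).resolve_left
          (sub_ne_zero.mpr hne)
    have htot : ∑ t : ZMod p, e t = p • ((1 : CycInt p) ⊗ₜ x) := by
      simp only [e]
      rw [Finset.sum_comm]
      simp only [← Finset.sum_smul, hsum, ite_smul, zero_smul, Finset.sum_ite_eq', Finset.mem_univ, if_true]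
      rw [Nat.cast_smul_eq_nsmul]
      simp [f]
    rw [pow_one, ← htot]
    exact AddSubgroup.sum_mem _ fun t _ => AddSubgroup.subset_closure ⟨t, he t⟩
  -- decomposition into eigenvectors
  have decomp : ∀ k, ∀ x ∈ lcsL L k, (p ^ (k + 1)) • ((1 : CycInt p) ⊗ₜ[ℤ] x) ∈
      AddSubgroup.closure {y | ∃ t, y ∈ lcsFam B k t} := by
    intro k
    induction k with
    | zero => exact fun x _ => decomp0 x
    | succ k ih =>
      intro x hx
      refine AddSubgroup.closure_induction (p := fun x _ => (p ^ (k + 1 + 1)) • ((1 : CycInt p) ⊗ₜ[ℤ] x) ∈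
        AddSubgroup.closure {y | ∃ t, y ∈ lcsFam B (k + 1) t}) ?_
        (by simp only [tmul_zero, smul_zero]; exact zero_mem _)
        (fun _ _ _ _ h h' => by simp only [tmul_add, smul_add]; exact add_mem h h')
        (fun _ _ h => by simp only [tmul_neg, smul_neg]; exact neg_mem h) hx
      rintro _ ⟨a, ha, b, rfl⟩
      have h1 := ih a ha
      have h2 : p • ((1 : CycInt p) ⊗ₜ[ℤ] b) ∈ AddSubgroup.closure {y | ∃ t, y ∈ B t} := by
        have : (p ^ (0 + 1)) • ((1 : CycInt p) ⊗ₜ[ℤ] b) ∈ AddSubgroup.closure {y | ∃ t, y ∈ lcsFam B 0 t} := by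
          exact decomp0 b
        simpa [lcsFam] using this
      rw [show (p ^ (k + 1 + 1)) • ((1 : CycInt p) ⊗ₜ[ℤ] ⁅a, b⁆) =
          ⁅(p ^ (k + 1)) • ((1 : CycInt p) ⊗ₜ[ℤ] a), p • ((1 : CycInt p) ⊗ₜ[ℤ] b)⁆ by
        rw [nsmul_lie, lie_nsmul, bracket_tmul, one_mul, smul_smul, ← pow_succ]]
      generalize (p ^ (k + 1)) • ((1 : CycInt p) ⊗ₜ[ℤ] a) = u at h1
      generalize p • ((1 : CycInt p) ⊗ₜ[ℤ] b) = v at h2
      refine AddSubgroup.closure_induction (p := fun u _ => ⁅u, v⁆ ∈
        AddSubgroup.closure {y | ∃ t, y ∈ lcsFam B (k + 1) t}) ?_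
        (by simp only [zero_lie]; exact zero_mem _)
        (fun _ _ _ _ h h' => by simp only [add_lie]; exact add_mem h h')
        (fun _ _ h => by simp only [neg_lie]; exact neg_mem h) h1
      rintro u ⟨i, hu⟩
      refine AddSubgroup.closure_induction (p := fun v _ => ⁅u, v⁆ ∈
        AddSubgroup.closure {y | ∃ t, y ∈ lcsFam B (k + 1) t}) ?_
        (by simp only [lie_zero]; exact zero_mem _)
        (fun _ _ _ _ h h' => by simp only [lie_add]; exact add_mem h h')
        (fun _ _ h => by simp only [lie_neg]; exact neg_mem h) h2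
      rintro v ⟨j, hv⟩
      exact AddSubgroup.subset_closure ⟨i + j, mem_br hu hv⟩
  refine (AddSubgroup.eq_bot_iff_forall _).mpr fun x hx => ?_
  have h := decomp N x hx
  have hle : AddSubgroup.closure {y | ∃ t, y ∈ lcsFam B N t} ≤ ⊥ := by
    rw [AddSubgroup.closure_le]
    rintro y ⟨t, hy⟩
    rwa [hN B hB h0 t] at hy
  have h' := hle h
  rw [AddSubgroup.mem_bot, ← tmul_smul] at h'
  have hx0 : (p ^ (N + 1)) • x = 0 := one_tmul_injective (p := p) (h'.trans (tmul_zero L (1 : CycInt p)).symm)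
  exact pow_torsion_free htor (N + 1) x hx0

end Cfsg.Agent.H21.Kreknin
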