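import Cfsg.Agent.H21.Kreknin.GradedSolvable

/-!
Kostrikin–Kreknin: a solvable Lie ring graded by `ZMod p`, `p` prime, with trivial zero component is
nilpotent, with the bound `1 + (p-1) + ⋯ + (p-1)^(s-1)` for derived length `s`.
-/

namespace Cfsg.Agent.H21.Kreknin

variable {M : Type*} [LieRing M] {p : ℕ}

/-- The lower central series of a family. -/
def lcsFam (B : ZMod p → AddSubgroup M) : ℕ → ZMod p → AddSubgroup M
  | 0 => B
  | k + 1 => br (lcsFam B k) B

theorem lcsFam_succ_le {B : ZMod p → AddSubgroup M} (hB : IsClosedFam B) :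
    ∀ k t, lcsFam B (k + 1) t ≤ lcsFam B k t
  | 0, t => hB.br_self_le t
  | k + 1, t => br_mono (lcsFam_succ_le hB k) (fun _ => le_rfl) t

theorem lcsFam_antitone {B : ZMod p → AddSubgroup M} (hB : IsClosedFam B) (t : ZMod p) :
    Antitone fun k => lcsFam B k t :=
  antitone_nat_of_succ_le fun k => lcsFam_succ_le hB k t

theorem lie_lie_eq (a b c : M) : ⁅a, ⁅b, c⁆⁆ = ⁅⁅a, b⁆, c⁆ - ⁅⁅a, c⁆, b⁆ := by
  rw [leibniz_lie, ← lie_skew b ⁅a, c⁆, sub_eq_add_neg]

theorem lie_lie_right (a b c : M) : ⁅⁅a, b⁆, c⁆ = ⁅a, ⁅b, c⁆⁆ + ⁅⁅a, c⁆, b⁆ := by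
  rw [lie_lie_eq]; abel

/-- Brackets of terms of the lower central series. -/
theorem lie_mem_lcsFam (B : ZMod p → AddSubgroup M) :
    ∀ b a i j, ∀ x ∈ lcsFam B a i, ∀ y ∈ lcsFam B b j, ⁅x, y⁆ ∈ lcsFam B (a + b + 1) (i + j) := by
  intro b
  induction b with
  | zero => exact fun a i j x hx y hy => mem_br hx hy
  | succ b ih =>
    intro a i j x hx y hy
    refine AddSubgroup.closure_induction
      (p := fun y _ => ⁅x, y⁆ ∈ lcsFam B (a + (b + 1) + 1) (i + j)) ?_
      (by simp only [lie_zero]; exact zero_mem _)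
      (fun _ _ _ _ h h' => by simp only [lie_add]; exact add_mem h h')
      (fun _ _ h => by simp only [lie_neg]; exact neg_mem h) hy
    rintro _ ⟨k, l, rfl, u, hu, v, hv, rfl⟩
    rw [lie_lie_eq]
    refine sub_mem ?_ ?_
    · rw [← add_assoc i k l]
      exact mem_br (ih a i k x hx u hu) hv
    · rw [add_comm k l, ← add_assoc i l k, show a + (b + 1) + 1 = (a + 1) + b + 1 by omega]
      exact ih (a + 1) (i + l) k _ (mem_br hx hv) u hu

/-- The derived series consists of ideals. -/
theorem lie_mem_der {B : ZMod p → AddSubgroup M} (hB : IsClosedFam B) :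
    ∀ s i j, ∀ x ∈ (der^[s] B) i, ∀ y ∈ B j, ⁅x, y⁆ ∈ (der^[s] B) (i + j) := by
  intro s
  induction s with
  | zero => exact fun i j x hx y hy => hB i j x hx y hy
  | succ s ih =>
    rw [Function.iterate_succ_apply']
    intro i j x hx y hy
    refine AddSubgroup.closure_induction (p := fun x _ => ⁅x, y⁆ ∈ der (der^[s] B) (i + j)) ?_
      (by simp only [zero_lie]; exact zero_mem _)
      (fun _ _ _ _ h h' => by simp only [add_lie]; exact add_mem h h')
      (fun _ _ h => by simp only [neg_lie]; exact neg_mem h) hx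
    rintro _ ⟨k, l, rfl, u, hu, v, hv, rfl⟩
    rw [lie_lie_right]
    refine add_mem ?_ ?_
    · rw [add_assoc]
      exact mem_br hu (ih l j v hv y hy)
    · rw [add_right_comm]
      exact mem_br (ih k j u hu y hy) hv

/-- Iterated bracket with a list of elements. -/
def fold (x : M) (l : List (ZMod p × ℕ × M)) : M := l.foldl (fun u e => ⁅u, e.2.2⁆) x

theorem fold_zero (l : List (ZMod p × ℕ × M)) : fold (0 : M) l = 0 := by
  induction l with
  | nil => rfl
  | cons e l ih => simpa [fold] using ih

theorem fold_add (l : List (ZMod p × ℕ × M)) : ∀ x y : M, fold (x + y) l = fold x l + fold y l := by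
  induction l with
  | nil => exact fun _ _ => rfl
  | cons e l ih => intro x y; simp only [fold, List.foldl_cons, add_lie] at ih ⊢; exact ih _ _

theorem fold_neg (l : List (ZMod p × ℕ × M)) : ∀ x : M, fold (-x) l = -fold x l := by
  induction l with
  | nil => exact fun _ => rfl
  | cons e l ih => intro x; simp only [fold, List.foldl_cons, neg_lie] at ih ⊢; exact ih _

theorem fold_cons (x : M) (e : ZMod p × ℕ × M) (l : List (ZMod p × ℕ × M)) :
    fold x (e :: l) = fold ⁅x, e.2.2⁆ l := rfl

theorem fold_append (x : M) (l₁ l₂ : List (ZMod p × ℕ × M)) :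
    fold x (l₁ ++ l₂) = fold (fold x l₁) l₂ := by simp [fold]

/-- The degree of a list. -/
def deg (l : List (ZMod p × ℕ × M)) : ZMod p := (l.map fun e => e.1).sum

/-- The weight of a list. -/
def wt (l : List (ZMod p × ℕ × M)) : ℕ := (l.map fun e => e.2.1 + 1).sum

/-- The entries lie in the recorded terms. -/
def Valid (B : ZMod p → AddSubgroup M) (l : List (ZMod p × ℕ × M)) : Prop :=
  ∀ e ∈ l, e.2.2 ∈ lcsFam B e.2.1 e.1

/-- Iterated brackets stay in an ideal. -/
theorem fold_mem {B I : ZMod p → AddSubgroup M} (hB : IsClosedFam B)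
    (hI : ∀ i j, ∀ x ∈ I i, ∀ y ∈ B j, ⁅x, y⁆ ∈ I (i + j)) :
    ∀ l, Valid B l → ∀ i, ∀ x ∈ I i, fold x l ∈ I (i + deg l) := by
  intro l
  induction l with
  | nil => intro _ i x hx; simpa [fold, deg] using hx
  | cons e l ih =>
    intro hv i x hx
    rw [fold_cons, show deg (e :: l) = e.1 + deg l by simp [deg], ← add_assoc]
    exact ih (fun e' he' => hv e' (List.mem_cons_of_mem _ he')) _ _
      (hI i e.1 x hx _ (lcsFam_antitone hB e.1 (Nat.zero_le _) (hv e (List.mem_cons_self ..))))

section Reachable

variable {α : Type*} (f : α → ZMod p)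

/-- With `p - 1` nonzero degrees every degree is the degree of a prefix of some reordering. -/
theorem exists_prefix [Fact p.Prime] (l : List α) (hne : ∀ e ∈ l, f e ≠ 0) (hlen : p - 1 ≤ l.length)
    (t : ZMod p) : ∃ l₁ l₂, l.Perm (l₁ ++ l₂) ∧ (l₁.map f).sum = t := by
  classical
  have key : ∀ l : List α, (∀ e ∈ l, f e ≠ 0) → ∃ S : Finset (ZMod p), min p (l.length + 1) ≤ S.card ∧
      ∀ u ∈ S, ∃ l₁ l₂, l.Perm (l₁ ++ l₂) ∧ (l₁.map f).sum = u := by
    intro l
    induction l with
    | nil =>
      intro _
      refine ⟨{0}, by simp, fun u hu => ⟨[], [], List.Perm.refl _, ?_⟩⟩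
      rw [Finset.mem_singleton.mp hu]; rfl
    | cons e l ih =>
      intro hne
      obtain ⟨S, hS, hSm⟩ := ih fun e' he' => hne e' (List.mem_cons_of_mem _ he')
      refine ⟨S ∪ S.image (fun u => f e + u), ?_, fun u hu => ?_⟩
      · by_cases hsub : S.image (fun u => f e + u) ⊆ S
        · -- then `S` is everything
          have hne0 : S.Nonempty := Finset.card_pos.mp (lt_of_lt_of_le
            (by have := (Fact.out : p.Prime).pos; omega) hS)
          obtain ⟨u₀, hu₀⟩ := hne0
          have hmul : ∀ k : ℕ, u₀ + (k : ZMod p) * f e ∈ S := by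
            intro k
            induction k with
            | zero => simpa using hu₀
            | succ k ihk =>
              have := hsub (Finset.mem_image_of_mem (fun u => f e + u) ihk)
              rw [Nat.cast_succ, add_mul, one_mul]
              convert this using 1
              ring
          have huniv : S = Finset.univ := Finset.eq_univ_iff_forall.mpr fun u => by
            have := hmul ((u - u₀) * (f e)⁻¹).val
            rwa [ZMod.natCast_zmod_val, inv_mul_cancel_right₀ (hne e (List.mem_cons_self ..)),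
              add_sub_cancel] at this
          rw [huniv, Finset.union_eq_left.mpr (Finset.subset_univ _), Finset.card_univ, ZMod.card]
          exact min_le_left _ _
        · obtain ⟨u, hu, hun⟩ := Finset.not_subset.mp hsub
          have h1 : S.card < (S ∪ S.image (fun u => f e + u)).card :=
            Finset.card_lt_card (Finset.ssubset_iff_of_subset Finset.subset_union_left |>.mpr
              ⟨u, Finset.mem_union_right _ hu, hun⟩)
          simp only [List.length_cons]
          omega
      · rcases Finset.mem_union.mp hu with hu | hu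
        · obtain ⟨l₁, l₂, hp, hs⟩ := hSm u hu
          exact ⟨l₁, e :: l₂, (hp.cons e).trans (List.perm_middle (l₁ := l₁) (l₂ := l₂)).symm, hs⟩
        · obtain ⟨v, hv, rfl⟩ := Finset.mem_image.mp hu
          obtain ⟨l₁, l₂, hp, hs⟩ := hSm v hv
          exact ⟨e :: l₁, l₂, hp.cons e, by simp [hs]⟩
  obtain ⟨S, hS, hSm⟩ := key l hne
  refine hSm t ((Finset.eq_univ_of_card S (le_antisymm (Finset.card_le_univ S) ?_)).symm ▸ Finset.mem_univ t)
  rw [ZMod.card]
  have := (Fact.out : p.Prime).two_le
  omega

end Reachable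

variable [Fact p.Prime] {B : ZMod p → AddSubgroup M}

/-- Long enough iterated brackets into a term of the derived series lie in the next one. -/
theorem fold_mem_der (hB : IsClosedFam B) (h0 : B 0 = ⊥) {s c : ℕ}
    (hc : ∀ t, lcsFam B c t ≤ (der^[s] B) t) :
    ∀ (k : ℕ) (l : List (ZMod p × ℕ × M)), l.length = k → Valid B l → (p - 2) * c < wt l →
      ∀ i, ∀ x ∈ (der^[s] B) i, fold x l ∈ (der^[s + 1] B) (i + deg l) := by
  intro k
  induction k with
  | zero =>
    intro l hl _ hw
    rw [List.length_eq_zero_iff] at hl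
    simp [hl, wt] at hw
  | succ k ih =>
    intro l hl hv hw i x hx
    by_cases hbig : ∃ e ∈ l, c ≤ e.2.1
    · obtain ⟨e, he, hce⟩ := hbig
      obtain ⟨l₁, l₂, rfl⟩ := List.append_of_mem he
      have h1 : fold x l₁ ∈ (der^[s] B) (i + deg l₁) :=
        fold_mem hB (lie_mem_der hB s) l₁ (fun e' he' => hv e' (List.mem_append_left _ he')) i x hx
      have h2 : ⁅fold x l₁, e.2.2⁆ ∈ (der^[s + 1] B) (i + deg l₁ + e.1) := by
        rw [Function.iterate_succ_apply']
        exact mem_br h1 (hc e.1 (lcsFam_antitone hB e.1 hce (hv e (by simp))))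
      have h3 := fold_mem hB (lie_mem_der hB (s + 1)) l₂ (fun e' he' => hv e' (by simp [he'])) _ _ h2
      rw [fold_append, fold_cons]
      convert h3 using 2
      simp [deg, List.map_append, List.sum_append, add_assoc]
    push Not at hbig
    by_cases hzero : ∃ e ∈ l, e.1 = 0
    · obtain ⟨e, he, h⟩ := hzero
      obtain ⟨l₁, l₂, rfl⟩ := List.append_of_mem he
      have hy : e.2.2 = 0 := by
        have h' := lcsFam_antitone hB e.1 (Nat.zero_le _) (hv e he)
        change e.2.2 ∈ B e.1 at h'
        rwa [h, h0, AddSubgroup.mem_bot] at h'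
      rw [fold_append, fold_cons, hy, lie_zero, fold_zero]
      exact zero_mem _
    push Not at hzero
    have hlen : p - 1 ≤ l.length := by
      by_contra hlt
      have hle : wt l ≤ (l.map fun e => e.2.1 + 1).length * c :=
        List.sum_le_card_nsmul _ c fun y hy => by
          obtain ⟨e, he, rfl⟩ := List.mem_map.mp hy
          exact hbig e he
      rw [List.length_map] at hle
      have : l.length * c ≤ (p - 2) * c := Nat.mul_le_mul_right c (by omega)
      omega
    -- reordering does not matter
    have hperm : ∀ l₁ l₂ : List (ZMod p × ℕ × M), l₁.Perm l₂ →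
        ∀ pre, (pre ++ l₁).length = k + 1 → Valid B (pre ++ l₁) → (p - 2) * c < wt (pre ++ l₁) →
        fold x (pre ++ l₁) - fold x (pre ++ l₂) ∈ (der^[s + 1] B) (i + deg (pre ++ l₁)) := by
      intro l₁ l₂ h
      induction h with
      | nil => intro pre _ _ _; rw [sub_self]; exact zero_mem _
      | cons e _ ihp =>
        intro pre h1 h2 h3
        simpa [List.append_assoc] using ihp (pre ++ [e]) (by simpa [List.append_assoc] using h1)
          (by simpa [List.append_assoc] using h2) (by simpa [List.append_assoc] using h3)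
      | swap e₁ e₂ rest =>
        intro pre h1 h2 h3
        set u := fold x pre
        have e : fold x (pre ++ e₂ :: e₁ :: rest) - fold x (pre ++ e₁ :: e₂ :: rest) =
            fold x (pre ++ (e₂.1 + e₁.1, e₂.2.1 + e₁.2.1 + 1, ⁅e₂.2.2, e₁.2.2⁆) :: rest) := by
          rw [fold_append, fold_append, fold_append]
          simp only [fold_cons]
          rw [sub_eq_iff_eq_add, ← fold_add, ← lie_lie_right]
        rw [e]
        have h4 := ih (pre ++ (e₂.1 + e₁.1, e₂.2.1 + e₁.2.1 + 1, ⁅e₂.2.2, e₁.2.2⁆) :: rest)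
          (by simp at h1 ⊢; omega) ?_ ?_ i x hx
        · convert h4 using 2
          simp [deg, List.map_append, List.sum_append, add_assoc]
        · intro e' he'
          rcases List.mem_append.mp he' with he' | he'
          · exact h2 e' (List.mem_append_left _ he')
          rcases List.mem_cons.mp he' with rfl | he'
          · exact lie_mem_lcsFam B _ _ _ _ _ (h2 e₂ (by simp)) _ (h2 e₁ (by simp))
          · exact h2 e' (by simp [he'])
        · refine lt_of_lt_of_le h3 (le_of_eq ?_)
          simp [wt, List.map_append, List.sum_append]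
          omega
      | trans hab hbc ihab ihbc =>
        intro pre h1 h2 h3
        have hpab := hab.append_left pre
        have hd := (hpab.map (fun e : ZMod p × ℕ × M => e.1)).sum_eq
        change deg _ = deg _ at hd
        have h4 := ihbc pre (hpab.length_eq ▸ h1) (fun e he => h2 e (hpab.mem_iff.mpr he))
          (lt_of_lt_of_le h3 (le_of_eq (hpab.map (fun e : ZMod p × ℕ × M => e.2.1 + 1)).sum_eq))
        rw [← hd] at h4
        have h5 := add_mem (ihab pre h1 h2 h3) h4
        rwa [sub_add_sub_cancel] at h5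
    obtain ⟨l₁, l₂, hp, hsum⟩ := exists_prefix (fun e => e.1) l hzero hlen (-i)
    have hd := hperm l (l₁ ++ l₂) hp [] (by simpa using hl) (by simpa using hv) (by simpa using hw)
    simp only [List.nil_append] at hd
    have hfirst : fold x l₁ = 0 := by
      have h1 := ((hB.iterate s).2 _) (fold_mem hB (lie_mem_der hB s) l₁
        (fun e he => hv e (hp.mem_iff.mpr (List.mem_append_left _ he))) i x hx)
      rwa [show deg l₁ = -i from hsum, add_neg_cancel, h0, AddSubgroup.mem_bot] at h1
    rwa [fold_append, hfirst, fold_zero, sub_zero] at hd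

/-- The lower central series catches up with the derived series. -/
theorem lcsFam_le_der (hB : IsClosedFam B) (h0 : B 0 = ⊥) :
    ∀ s t, lcsFam B (∑ i ∈ Finset.range s, (p - 1) ^ i) t ≤ (der^[s] B) t := by
  intro s
  induction s with
  | zero => intro t; simp [lcsFam]
  | succ s ih =>
    set c := ∑ i ∈ Finset.range s, (p - 1) ^ i with hc
    have hp2 := (Fact.out : p.Prime).two_le
    have hnum : ∑ i ∈ Finset.range (s + 1), (p - 1) ^ i = c + ((p - 2) * c + 1) := by
      rw [geom_sum_succ, ← hc, show p - 1 = p - 2 + 1 by omega]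
      ring
    have key : ∀ m (l : List (ZMod p × ℕ × M)), (∀ e ∈ l, e.2.1 = 0) → Valid B l →
        (p - 2) * c < m + l.length →
        ∀ i, ∀ u ∈ lcsFam B (c + m) i, fold u l ∈ (der^[s + 1] B) (i + deg l) := by
      intro m
      induction m with
      | zero =>
        intro l hl hv hw i u hu
        refine fold_mem_der hB h0 ih l.length l rfl hv ?_ i u (ih i hu)
        have : (l.map fun e => e.2.1 + 1) = l.map (fun _ => 1) :=
          List.map_congr_left fun e he => by rw [hl e he]
        rw [wt, this]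
        simpa using hw
      | succ m ihm =>
        intro l hl hv hw i u hu
        refine AddSubgroup.closure_induction
          (p := fun u _ => fold u l ∈ (der^[s + 1] B) (i + deg l)) ?_
          (by simp only [fold_zero]; exact zero_mem _)
          (fun _ _ _ _ h h' => by simp only [fold_add]; exact add_mem h h')
          (fun _ _ h => by simp only [fold_neg]; exact neg_mem h) hu
        rintro _ ⟨a, b, rfl, v, hv', y, hy, rfl⟩
        have h1 := ihm ((b, 0, y) :: l) (by simpa using hl)
          (by intro e he; rcases List.mem_cons.mp he with rfl | he; exacts [hy, hv e he])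
          (by simp; omega) a v hv'
        rw [fold_cons] at h1
        simpa [deg, add_assoc] using h1
    intro t x hx
    rw [hnum] at hx
    have := key ((p - 2) * c + 1) [] (by simp) (by simp [Valid]) (by simp) t x hx
    simpa [fold, deg] using this

/-- Kreknin–Kostrikin. -/
theorem lcsFam_eq_bot (hB : IsClosedFam B) (h0 : B 0 = ⊥) (t : ZMod p) :
    lcsFam B (∑ i ∈ Finset.range (2 ^ (p - 1) - 1), (p - 1) ^ i) t = ⊥ :=
  eq_bot_iff.mpr ((lcsFam_le_der hB h0 _ t).trans (der_eq_bot hB h0 t).le)

/-- In the case `p = 3` the class is at most two. -/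
theorem lcsFam_two_eq_bot {B : ZMod 3 → AddSubgroup M} (hB : IsClosedFam B) (h0 : B 0 = ⊥) (t : ZMod 3) :
    lcsFam B 2 t = ⊥ := by
  have hzero : ∀ i, i = 0 → ∀ a ∈ B i, a = 0 := by
    rintro i rfl a ha; rwa [h0, AddSubgroup.mem_bot] at ha
  refine eq_bot_iff.mpr (br_le (Z := fun _ => ⊥) (fun i k u hu c hc => ?_) t)
  refine AddSubgroup.closure_induction (p := fun u _ => ⁅u, c⁆ ∈ (⊥ : AddSubgroup M)) ?_
    (by simp only [zero_lie]; exact zero_mem _)
    (fun _ _ _ _ h h' => by simp only [add_lie]; exact add_mem h h')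
    (fun _ _ h => by simp only [neg_lie]; exact neg_mem h) hu
  rintro _ ⟨a, b, rfl, x, hx, y, hy, rfl⟩
  rw [AddSubgroup.mem_bot]
  have cases3 : ∀ a b k : ZMod 3, a = 0 ∨ b = 0 ∨ k = 0 ∨ a + b = 0 ∨ a + b + k = 0 ∨
      (b + k = 0 ∧ a + k = 0) := by decide
  rcases cases3 a b k with h | h | h | h | h | ⟨h, h'⟩
  · rw [hzero a h x hx, zero_lie, zero_lie]
  · rw [hzero b h y hy, lie_zero, zero_lie]
  · rw [hzero k h c hc, lie_zero]
  · rw [hzero _ h _ (hB a b x hx y hy), zero_lie]
  · exact hzero _ h _ (hB _ _ _ (hB a b x hx y hy) c hc)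
  · rw [lie_lie_right, hzero _ h _ (hB b k y hy c hc), hzero _ h' _ (hB a k x hx c hc)]
    simp

end Cfsg.Agent.H21.Kreknin
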