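import Mathlib.Algebra.Lie.Basic
import Mathlib.Data.ZMod.Basic
import Mathlib.Tactic

/-!
Kreknin: a Lie ring graded by `ZMod p` with trivial zero component is solvable.

Graded subrings are families of additive subgroups indexed by the degree; no directness is needed.
-/

namespace Cfsg.Agent.H21.Kreknin

variable {M : Type*} [LieRing M] {p : ℕ}

/-- A family closed under brackets. -/
def IsClosedFam (B : ZMod p → AddSubgroup M) : Prop :=
  ∀ i j, ∀ a ∈ B i, ∀ b ∈ B j, ⁅a, b⁆ ∈ B (i + j)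

/-- The family spanned by the brackets of two families. -/
def br (X Y : ZMod p → AddSubgroup M) : ZMod p → AddSubgroup M := fun t =>
  AddSubgroup.closure {x | ∃ i j, i + j = t ∧ ∃ a ∈ X i, ∃ b ∈ Y j, x = ⁅a, b⁆}

/-- The derived family. -/
def der (B : ZMod p → AddSubgroup M) : ZMod p → AddSubgroup M := br B B

theorem mem_br {X Y : ZMod p → AddSubgroup M} {i j : ZMod p} {a b : M} (ha : a ∈ X i) (hb : b ∈ Y j) :
    ⁅a, b⁆ ∈ br X Y (i + j) :=
  AddSubgroup.subset_closure ⟨i, j, rfl, a, ha, b, hb, rfl⟩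

theorem br_le {X Y Z : ZMod p → AddSubgroup M}
    (h : ∀ i j, ∀ a ∈ X i, ∀ b ∈ Y j, ⁅a, b⁆ ∈ Z (i + j)) (t : ZMod p) : br X Y t ≤ Z t := by
  rw [br, AddSubgroup.closure_le]
  rintro _ ⟨i, j, rfl, a, ha, b, hb, rfl⟩
  exact h i j a ha b hb

theorem br_mono {X Y X' Y' : ZMod p → AddSubgroup M} (hX : ∀ t, X t ≤ X' t) (hY : ∀ t, Y t ≤ Y' t)
    (t : ZMod p) : br X Y t ≤ br X' Y' t :=
  br_le (fun i j a ha b hb => mem_br (hX i ha) (hY j hb)) t

theorem IsClosedFam.br_self_le {B : ZMod p → AddSubgroup M} (hB : IsClosedFam B) (t : ZMod p) :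
    der B t ≤ B t := br_le hB t

theorem IsClosedFam.der {B : ZMod p → AddSubgroup M} (hB : IsClosedFam B) : IsClosedFam (der B) :=
  fun i j _ ha _ hb => mem_br (hB.br_self_le i ha) (hB.br_self_le j hb)

theorem IsClosedFam.iterate {B : ZMod p → AddSubgroup M} (hB : IsClosedFam B) (n : ℕ) :
    IsClosedFam (Kreknin.der^[n] B) ∧ ∀ t, (Kreknin.der^[n] B) t ≤ B t := by
  induction n with
  | zero => exact ⟨hB, fun t => le_rfl⟩
  | succ n ih =>
    rw [Function.iterate_succ_apply']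
    exact ⟨ih.1.der, fun t => (ih.1.br_self_le t).trans (ih.2 t)⟩

/-- The subring generated by the components of degree above `s`. -/
def gen (s : ℕ) (B : ZMod p → AddSubgroup M) : ZMod p → AddSubgroup M := fun t =>
  ⨅ (C : ZMod p → AddSubgroup M) (_ : IsClosedFam C) (_ : ∀ u, s < u.val → B u ≤ C u), C t

theorem le_gen {s : ℕ} {B : ZMod p → AddSubgroup M} {u : ZMod p} (hu : s < u.val) : B u ≤ gen s B u :=
  le_iInf fun _ => le_iInf fun _ => le_iInf fun h => h u hu

theorem gen_le {s : ℕ} {B C : ZMod p → AddSubgroup M} (hC : IsClosedFam C)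
    (h : ∀ u, s < u.val → B u ≤ C u) (t : ZMod p) : gen s B t ≤ C t :=
  iInf_le_of_le C (iInf_le_of_le hC (iInf_le _ h))

theorem gen_closed (s : ℕ) (B : ZMod p → AddSubgroup M) : IsClosedFam (gen s B) := by
  intro i j a ha b hb
  simp only [gen, AddSubgroup.mem_iInf] at ha hb ⊢
  exact fun C hC h => hC i j a (ha C hC h) b (hb C hC h)

variable [NeZero p]

/-- The key step: brackets with the subring generated by the components of degree above `s` have
their component of degree `s + 1` generated by higher components. -/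
theorem br_gen_le {s : ℕ} {B : ZMod p → AddSubgroup M} (hB : IsClosedFam B)
    (h0 : B 0 = ⊥) {t : ZMod p} (ht : t.val = s + 1) :
    br B (gen s B) t ≤ gen (s + 1) B t := by
  classical
  let W : ZMod p → AddSubgroup M := fun u =>
    AddSubgroup.closure {y | ∃ c x : M, ∃ τ : ZMod p, s < τ.val ∧ c ∈ B (u - τ) ∧ x ∈ B τ ∧ y = ⁅c, x⁆}
  let P : ZMod p → AddSubgroup M := fun j =>
    { carrier := {b | b ∈ B j ∧ ∀ i, ∀ a ∈ B i, ⁅a, b⁆ ∈ W (i + j)}
      zero_mem' := ⟨zero_mem _, fun i a _ => by rw [lie_zero]; exact zero_mem _⟩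
      add_mem' := fun hx hy => ⟨add_mem hx.1 hy.1, fun i a ha => by
        rw [lie_add]; exact add_mem (hx.2 i a ha) (hy.2 i a ha)⟩
      neg_mem' := fun hx => ⟨neg_mem hx.1, fun i a ha => by
        rw [lie_neg]; exact neg_mem (hx.2 i a ha)⟩ }
  have hP : IsClosedFam P := by
    rintro j l b ⟨hb, hbP⟩ c ⟨hc, hcP⟩
    refine ⟨hB j l b hb c hc, fun i a ha => ?_⟩
    have e : ⁅a, ⁅b, c⁆⁆ = ⁅⁅a, b⁆, c⁆ - ⁅⁅a, c⁆, b⁆ := by
      rw [leibniz_lie, ← lie_skew b ⁅a, c⁆, sub_eq_add_neg]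
    rw [e, ← add_assoc]
    refine sub_mem (hcP (i + j) _ (hB i j a ha b hb)) ?_
    rw [add_right_comm]
    exact hbP (i + l) _ (hB i l a ha c hc)
  have hPB : ∀ u, s < u.val → B u ≤ P u := fun u hu b hb =>
    ⟨hb, fun i a ha => AddSubgroup.subset_closure
      ⟨a, b, u, hu, by rwa [add_sub_cancel_right], hb, rfl⟩⟩
  refine le_trans (br_le (Z := W) (fun i j a ha b hb => (gen_le hP hPB j hb).2 i a ha) t) ?_
  rw [show W t = AddSubgroup.closure _ from rfl, AddSubgroup.closure_le]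
  rintro _ ⟨c, x, τ, hτ, hc, hx, rfl⟩
  by_cases hτt : τ = t
  · rw [hτt, sub_self, h0, AddSubgroup.mem_bot] at hc
    rw [hc, zero_lie]
    exact zero_mem _
  have hτ1 : s + 1 < τ.val := by
    refine lt_of_le_of_ne hτ fun e => hτt (ZMod.val_injective p ?_)
    rw [ht, ← e]
  have hu : s + 1 < (t - τ).val := by
    have h1 := ZMod.val_lt τ
    have h2 : (((p + t.val - τ.val : ℕ)) : ZMod p) = t - τ := by
      rw [Nat.cast_sub (by omega), Nat.cast_add, ZMod.natCast_self, ZMod.natCast_zmod_val,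
        ZMod.natCast_zmod_val, zero_add]
    rw [← h2, ZMod.val_natCast_of_lt (by omega)]
    omega
  have := gen_closed (s + 1) B (t - τ) τ c (le_gen hu hc) x (le_gen hτ1 hx)
  rwa [sub_add_cancel] at this

/-- Kreknin's theorem. -/
theorem der_le_gen (s : ℕ) : s < p → ∀ {B : ZMod p → AddSubgroup M}, IsClosedFam B → B 0 = ⊥ →
    ∀ t, (der^[2 ^ s - 1] B) t ≤ gen s B t := by
  induction s with
  | zero =>
    intro _ B _ h0 t
    by_cases ht : t = 0
    · rw [ht]
      simp [h0]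
    · simpa using le_gen (B := B) (s := 0) (Nat.pos_of_ne_zero fun e => ht ((ZMod.val_eq_zero t).mp e))
  | succ s ih =>
    intro hs B hB h0 t
    have hB' := hB.iterate (2 ^ s)
    have h0' : (der^[2 ^ s] B) 0 = ⊥ := eq_bot_iff.mpr ((hB'.2 0).trans h0.le)
    have hstep : ∀ u, s < u.val → (der^[2 ^ s] B) u ≤ gen (s + 1) B u := by
      intro u hu
      rcases (Nat.succ_le_of_lt hu).lt_or_eq with h | h
      · exact (hB'.2 u).trans (le_gen h)
      · have h2 : 2 ^ s = (2 ^ s - 1) + 1 := (Nat.sub_add_cancel Nat.one_le_two_pow).symm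
        rw [h2, Function.iterate_succ_apply']
        refine le_trans ?_ (br_gen_le hB h0 h.symm)
        exact br_mono (hB.iterate _).2 (ih (Nat.lt_of_succ_lt hs) hB h0) u
    have e : 2 ^ (s + 1) - 1 = (2 ^ s - 1) + 2 ^ s := by
      have := Nat.one_le_two_pow (n := s); rw [pow_succ]; omega
    rw [e, Function.iterate_add_apply]
    exact (ih (Nat.lt_of_succ_lt hs) hB'.1 h0' t).trans (gen_le (gen_closed _ _) hstep t)

/-- A closed family without zero component has vanishing derived series. -/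
theorem der_eq_bot {B : ZMod p → AddSubgroup M} (hB : IsClosedFam B) (h0 : B 0 = ⊥) (t : ZMod p) :
    (der^[2 ^ (p - 1) - 1] B) t = ⊥ := by
  refine eq_bot_iff.mpr ((der_le_gen (p - 1) (Nat.sub_lt (NeZero.pos p) one_pos) hB h0 t).trans ?_)
  exact gen_le (C := fun _ => ⊥) (fun i j a ha b _ => by
    rw [AddSubgroup.mem_bot] at ha; rw [ha, zero_lie]; exact zero_mem _)
    (fun u hu => absurd (ZMod.val_lt u) (by omega)) t

end Cfsg.Agent.H21.Kreknin
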