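import Cfsg.Agent.H21.Kreknin.AssociatedLie
import Cfsg.Agent.H21.Kreknin.Automorphism
import Cfsg.Agent.H21.Complement
import Cfsg.Agent.H21.ThompsonFpf

/-!
Finite groups with an automorphism of prime order without nontrivial fixed point: the class bound of
Higman, Kreknin and Kostrikin.
-/

namespace Cfsg.Agent.H21.Kreknin

universe u

variable {G : Type u} [Group G]

theorem gam_map_mem (α : MulAut G) {k : ℕ} {g : G} (h : g ∈ gam G k) : α g ∈ gam G k :=
  (Subgroup.characteristic_iff_map_eq.mp (inferInstance : (gam G k).Characteristic) α).le ⟨g, h, rfl⟩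

/-- The induced map of a factor. -/
def factorMap (α : MulAut G) (k : ℕ) : Factor G k →+ Factor G k :=
  factorLift (fun g h => fmk k (α g) (gam_map_mem α h))
    (fun g g' h h' => by
      simp only [map_mul]
      exact fmk_mul (gam_map_mem α h) (gam_map_mem α h'))
    (fun g _ h => (fmk_eq_zero _).mpr (gam_map_mem α h))

/-- The induced map of the Lie ring. -/
def grMap (α : MulAut G) : GrLie G →+ GrLie G := DirectSum.map (factorMap α)

theorem grMap_iota (α : MulAut G) {k : ℕ} {g : G} (h : g ∈ gam G k) :
    grMap α (iota k g h) = iota k (α g) (gam_map_mem α h) := by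
  rw [grMap, iota, DirectSum.map_of]; rfl

theorem grMap_lie (α : MulAut G) (a b : GrLie G) : grMap α ⁅a, b⁆ = ⁅grMap α a, grMap α b⁆ := by
  induction a using grLie_induction with
  | zero => simp
  | add a a' ha ha' => simp only [add_lie, map_add, ha, ha']
  | hom i g hg =>
    induction b using grLie_induction with
    | zero => simp
    | add b b' hb hb' => simp only [lie_add, map_add, hb, hb']
    | hom j h hh =>
      rw [lie_iota, grMap_iota, grMap_iota, grMap_iota, lie_iota]
      exact iota_congr _ _ rfl (map_commutatorElement α g h)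

variable [Finite G]

/-- An element congruent to its image modulo an invariant subgroup lies in it. -/
theorem mem_of_map_congr {α : MulAut G} (hfpf : ∀ g : G, α g = g → g = 1) {N : Subgroup G}
    (hN : ∀ g ∈ N, α g ∈ N) {x : G} (hx : x⁻¹ * α x ∈ N) : x ∈ N := by
  have hinj : ∀ a b : G, a⁻¹ * α a = b⁻¹ * α b → a = b := fun a b h => by
    refine (mul_inv_eq_one (a := b) (b := a)).mp (hfpf _ ?_) |>.symm
    rw [map_mul, map_inv, show α b = b * (a⁻¹ * α a) by rw [h, mul_inv_cancel_left]]
    group
  have hb : Function.Surjective fun n : N => (⟨(n : G)⁻¹ * α n, mul_mem (inv_mem n.2) (hN _ n.2)⟩ : N) :=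
    Finite.surjective_of_injective fun a b h => Subtype.ext (hinj a b (congrArg Subtype.val h))
  obtain ⟨n, hn⟩ := hb ⟨_, hx⟩
  exact hinj x n (congrArg Subtype.val hn).symm ▸ n.2

/-- The lower central series stops at `N` if the graded Lie rings have class at most `N`. -/
theorem gam_le_succ {p : ℕ} [Fact p.Prime] (α : MulAut G) (hα : orderOf α = p)
    (hfpf : ∀ g : G, α g = g → g = 1) {N : ℕ}
    (hN : ∀ {M : Type u} [LieRing M] (B : ZMod p → AddSubgroup M), IsClosedFam B → B 0 = ⊥ →
      ∀ t, lcsFam B N t = ⊥) : gam G N ≤ gam G (N + 1) := by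
  have hpG : ¬ p ∣ Nat.card G := not_dvd_card_of_fpf (MonoidHom.id (MulAut G)) hα hfpf
  have hL : lcsL (GrLie G) N = ⊥ := by
    refine lcsL_eq_bot_of_fpf (p := p) (grMap α) (grMap_lie α) ?_ ?_ ?_ hN
    · intro x
      induction x using grLie_induction with
      | zero => exact Function.iterate_fixed (map_zero _) p
      | add a b ha hb => rw [iterate_map_add, ha, hb]
      | hom k g h =>
        have key : ∀ n, ∃ h', (grMap α)^[n] (iota k g h) = iota k ((α ^ n) g) h' := by
          intro n
          induction n with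
          | zero => exact ⟨h, rfl⟩
          | succ n ih =>
            obtain ⟨h', e⟩ := ih
            refine ⟨by rw [pow_succ']; exact gam_map_mem α h', ?_⟩
            rw [Function.iterate_succ_apply', e, grMap_iota]
            exact iota_congr _ _ rfl (by rw [pow_succ']; rfl)
        obtain ⟨h', e⟩ := key p
        rw [e]
        exact iota_congr _ _ rfl (by rw [← hα, pow_orderOf_eq_one]; rfl)
    · intro x hx
      refine DirectSum.ext_component ℤ fun k => ?_
      have hk : factorMap α k (x k) = x k := by
        have := congrArg (fun y : GrLie G => y k) hx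
        simpa [grMap, DirectSum.map_apply] using this
      show x k = (0 : GrLie G) k
      obtain ⟨g, h, e⟩ := fmk_surjective (x k)
      rw [← e] at hk ⊢
      rw [DirectSum.zero_apply, fmk_eq_zero]
      refine mem_of_map_congr hfpf (fun _ => gam_map_mem α) ?_
      have hq := congrArg Additive.toMul hk.symm
      exact Subgroup.mem_subgroupOf.mp (QuotientGroup.eq.mp hq)
    · intro x hx
      refine DirectSum.ext_component ℤ fun k => ?_
      show x k = (0 : GrLie G) k
      rw [DirectSum.zero_apply]
      have hk : p • (x k) = 0 := by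
        exact (map_nsmul (DFinsupp.evalAddMonoidHom k : GrLie G →+ Factor G k) p x).symm.trans
          ((congrArg _ hx).trans (map_zero _))
      have hd : addOrderOf (x k) ∣ Nat.card G := by
        refine (_root_.addOrderOf_dvd_natCard _).trans ?_
        exact (Subgroup.card_quotient_dvd_card _).trans (Subgroup.card_subgroup_dvd_card _)
      rw [← AddMonoid.addOrderOf_eq_one_iff]
      refine Nat.eq_one_of_dvd_coprimes ?_ (addOrderOf_dvd_of_nsmul_eq_zero hk) hd
      exact (Fact.out : p.Prime).coprime_iff_not_dvd.mpr hpG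
  have hmem : ∀ k g (h : g ∈ gam G k), iota k g h ∈ lcsL (GrLie G) k := by
    intro k
    induction k with
    | zero => exact fun g h => AddSubgroup.mem_top _
    | succ k ih =>
      intro g h
      have h' := (Subgroup.mem_lowerCentralSeries_succ_iff (S := (⊤ : Subgroup G)) k g).mp h
      suffices H : ∃ hg : g ∈ gam G (k + 1), iota (k + 1) g hg ∈ lcsL (GrLie G) (k + 1) from H.2
      refine Subgroup.closure_induction (p := fun g _ => ∃ hg : g ∈ gam G (k + 1),
        iota (k + 1) g hg ∈ lcsL (GrLie G) (k + 1)) ?_ ?_ ?_ ?_ h'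
      · rintro _ ⟨a, ha, b, hb, rfl⟩
        refine ⟨mem_gam_commutator ha (j := 0) (Subgroup.mem_top b), ?_⟩
        rw [← lie_iota ha (j := 0) (Subgroup.mem_top b)]
        exact AddSubgroup.subset_closure ⟨_, ih a ha, _, rfl⟩
      · refine ⟨one_mem _, ?_⟩
        rw [(iota_eq_zero (one_mem (gam G (k + 1)))).mpr (one_mem _)]
        exact zero_mem _
      · rintro a b _ _ ⟨ha, h1⟩ ⟨hb, h2⟩
        refine ⟨mul_mem ha hb, ?_⟩
        rw [iota_mul ha hb]
        exact add_mem h1 h2
      · rintro a _ ⟨ha, h1⟩
        refine ⟨inv_mem ha, ?_⟩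
        rw [iota, fmk_inv ha, map_neg]
        exact neg_mem h1
  intro g hg
  have := hmem N g hg
  rw [hL, AddSubgroup.mem_bot] at this
  exact (iota_eq_zero hg).mp this

/-- The class bound. -/
theorem lowerCentralSeries_eq_bot {p : ℕ} [Fact p.Prime] (α : MulAut G) (hα : orderOf α = p)
    (hfpf : ∀ g : G, α g = g → g = 1) {N : ℕ}
    (hN : ∀ {M : Type u} [LieRing M] (B : ZMod p → AddSubgroup M), IsClosedFam B → B 0 = ⊥ →
      ∀ t, lcsFam B N t = ⊥) : (⊤ : Subgroup G).lowerCentralSeries N = ⊥ := by
  have hnil : Group.IsNilpotent G :=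
    Cfsg.Agent.H21.isNilpotent_of_fpf (φ := α) (fun g hg => hfpf g hg) Fact.out (iterate_eq_id hα)
  obtain ⟨m, hm⟩ := Subgroup.nilpotent_iff_lowerCentralSeries.mp hnil
  have hle := gam_le_succ α hα hfpf hN
  have hall : ∀ n, gam G N ≤ gam G (N + n) := by
    intro n
    induction n with
    | zero => exact le_rfl
    | succ n ih =>
      refine hle.trans ?_
      rw [gam_succ, show N + (n + 1) = N + n + 1 from rfl, gam_succ]
      exact Subgroup.commutator_mono ih le_rfl
  exact eq_bot_iff.mpr ((hall m).trans ((gam_anti (Nat.le_add_left m N)).trans hm.le))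

end Cfsg.Agent.H21.Kreknin
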